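import Cfsg.Agent.Lib.ChevBN.Pair

/-!
# The sign in the action of `n_p` on `x_p`

`n_p x_p(t) n_p⁻¹ = x_{-p}(-t)`, read off the entries of the matrices on the subspace spanned by
`h_p, e_p, e_{-p}`.
-/

set_option autoImplicit false
set_option linter.unusedSectionVars false

namespace Cfsg.Agent.Lib.StChar.Eta

open Cfsg Cfsg.Lie Cfsg.Agent.Lib.ChevBN.Elem Cfsg.Agent.Lib.ChevBN.Entries Cfsg.Agent.Lib.ChevBN.Table
open Cfsg.Agent.Lib.ChevBN.Rel
open Cfsg.Agent.Lib.ChevTri.Level Cfsg.Agent.Lib.ChevTri.Datum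

variable {D : ChevalleyDatum} {F : Type*} [Field F] {s : ℕ}

theorem col_inl (hs : s < D.nroots) (t : F) (M : Matrix D.Idx D.Idx F) (k : D.Idx) (j : Fin D.rank) :
    (M * D.x F s t) k (Sum.inl j) = M k (Sum.inl j) -
      (((D.cartanSR.getD j.val #[]).getD s 0 : ℤ) : F) * t * M k (Sum.inr ⟨s, hs⟩) := by
  rw [Matrix.mul_apply, Fintype.sum_sum_type]
  have h1 : ∑ l : Fin D.rank, M k (Sum.inl l) * D.x F s t (Sum.inl l) (Sum.inl j) = M k (Sum.inl j) := by
    simp only [x_inl_inl hs, mul_ite, mul_one, mul_zero, Finset.sum_ite_eq', Finset.mem_univ, if_true]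
  have h2 : ∑ u : Fin D.nroots, M k (Sum.inr u) * D.x F s t (Sum.inr u) (Sum.inl j) =
      M k (Sum.inr ⟨s, hs⟩) * (- (((D.cartanSR.getD j.val #[]).getD s 0 : ℤ) : F) * t) := by
    rw [Finset.sum_eq_single ⟨s, hs⟩]
    · rw [x_inr_inl hs, if_pos rfl]
    · intro u _ hu
      have : ¬ u.val = s := fun h => hu (Fin.ext h)
      rw [x_inr_inl hs, if_neg this, mul_zero]
    · simp
  rw [h1, h2]
  ring

theorem col_self (hs : s < D.nroots) (t : F) (M : Matrix D.Idx D.Idx F) (k : D.Idx) :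
    (M * D.x F s t) k (Sum.inr ⟨s, hs⟩) = M k (Sum.inr ⟨s, hs⟩) := by
  rw [Matrix.mul_apply, Fintype.sum_sum_type]
  have h1 : ∑ l : Fin D.rank, M k (Sum.inl l) * D.x F s t (Sum.inl l) (Sum.inr ⟨s, hs⟩) = 0 :=
    Finset.sum_eq_zero fun l _ => by rw [x_inl_inr_self hs, mul_zero]
  have h2 : ∑ u : Fin D.nroots, M k (Sum.inr u) * D.x F s t (Sum.inr u) (Sum.inr ⟨s, hs⟩) =
      M k (Sum.inr ⟨s, hs⟩) := by
    rw [Finset.sum_eq_single ⟨s, hs⟩]
    · rw [x_inr_inr_self hs, if_pos rfl, mul_one]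
    · intro u _ hu
      have : ¬ u.val = s := fun h => hu (Fin.ext h)
      rw [x_inr_inr_self hs, if_neg this, mul_zero]
    · simp
  rw [h1, h2, zero_add]

theorem col_neg (hs : s < D.nroots) (t : F) (M : Matrix D.Idx D.Idx F) (k : D.Idx) (c : Fin D.nroots)
    (hne : c.val ≠ s) (hc : c.val = D.neg s) :
    (M * D.x F s t) k (Sum.inr c) = M k (Sum.inr c) +
      (∑ j : Fin D.rank, M k (Sum.inl j) * (((D.coroot.getD s #[]).getD j.val 0 : ℤ) : F)) * t -
      t ^ 2 * M k (Sum.inr ⟨s, hs⟩) := by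
  rw [Matrix.mul_apply, Fintype.sum_sum_type]
  have h1 : ∑ l : Fin D.rank, M k (Sum.inl l) * D.x F s t (Sum.inl l) (Sum.inr c) =
      (∑ j : Fin D.rank, M k (Sum.inl j) * (((D.coroot.getD s #[]).getD j.val 0 : ℤ) : F)) * t := by
    rw [Finset.sum_mul]
    refine Finset.sum_congr rfl fun l _ => ?_
    rw [x_inl_inr_neg hs t l c hne hc]
    ring
  have hcs : c ≠ ⟨s, hs⟩ := fun h => hne (by rw [h])
  have h2 : ∑ u : Fin D.nroots, M k (Sum.inr u) * D.x F s t (Sum.inr u) (Sum.inr c) =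
      M k (Sum.inr c) - t ^ 2 * M k (Sum.inr ⟨s, hs⟩) := by
    have e : ∀ u : Fin D.nroots, M k (Sum.inr u) * D.x F s t (Sum.inr u) (Sum.inr c) =
        (if u = c then M k (Sum.inr u) else 0) + (if u = ⟨s, hs⟩ then - (t ^ 2 * M k (Sum.inr u)) else 0) := by
      intro u
      rw [x_inr_inr_neg hs t u c hne hc]
      by_cases h1 : u = c
      · have h2 : u ≠ ⟨s, hs⟩ := by rw [h1]; exact hcs
        simp [h1, hcs]
      · by_cases h2 : u = ⟨s, hs⟩
        · have h3 : u.val = s := by rw [h2]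
          simp [h2, hcs.symm]
          ring
        · have h3 : ¬ u.val = s := fun h => h2 (Fin.ext h)
          simp [h1, h2, h3]
    rw [Finset.sum_congr rfl fun u _ => e u, Finset.sum_add_distrib]
    simp only [Finset.sum_ite_eq', Finset.mem_univ, if_true]
    ring
  rw [h1, h2]
  ring

variable {η : ℕ → ℕ → ℤ}

/-- `A_{p,p} = 2`. -/
theorem cartan_self (hT : Tbl D) {i : ℕ} (hi : i < D.rank) : D.cartan i (D.simple i) = 2 := by
  have hp := hT.simple_lt hi
  have h1 := hT.coroot_w i hi (D.simple i) hp i hi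
  rw [if_pos rfl, hT.w_simple i hi, hT.coroot_neg _ hp i hi, hT.coroot_simple i hi i hi, if_pos rfl] at h1
  have h2 : Ad D (cr D (D.simple i)) (D.simple i) = 2 := by linarith
  rw [Ad_eq_sum] at h2
  rw [Finset.sum_eq_single i] at h2
  · rw [hT.coroot_simple i hi i hi, if_pos rfl, one_mul] at h2
    exact h2
  · intro j hj hne
    rw [hT.coroot_simple i hi j (Finset.mem_range.1 hj), if_neg hne.symm, zero_mul]
  · intro h
    exact absurd (Finset.mem_range.2 hi) h

/-- **The sign.** -/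
theorem eta_simple (hR : Sys D F η) (hT : Tbl D) {i : ℕ} (hi : i < D.rank) :
    (η i (D.simple i) : F) = -1 := by
  classical
  set p := D.simple i with hpdef
  have hp : p < D.nroots := hT.simple_lt hi
  set q := D.neg p with hqdef
  have hq : q < D.nroots := hT.neg_lt hp
  have hpos : D.IsPosRoot p := hT.simple_pos i hi
  have hqneg : D.IsNegRoot q := hT.neg_of_pos hpos
  have hpq : p ≠ q := hT.pos_ne_neg hpos hqneg
  have hqp : D.neg q = p := hT.neg_neg p hp
  let ii : Fin D.rank := ⟨i, hi⟩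
  let ep : Fin D.nroots := ⟨p, hp⟩
  let eq : Fin D.nroots := ⟨q, hq⟩
  have hαp : (((D.cartanSR.getD i #[]).getD p 0 : ℤ) : F) = 2 := by
    have : (D.cartanSR.getD i #[]).getD p 0 = 2 := cartan_self hT hi
    rw [this]
    norm_num
  have hαq : (((D.cartanSR.getD i #[]).getD q 0 : ℤ) : F) = -2 := by
    have : (D.cartanSR.getD i #[]).getD q 0 = -2 := by
      have h1 := hT.cartan_neg i hi p hp
      rw [cartan_self hT hi] at h1
      exact h1
    rw [this]
    norm_num
  have hcp : ∀ j : Fin D.rank, (((D.coroot.getD p #[]).getD j.val 0 : ℤ) : F) = if j = ii then 1 else 0 := by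
    intro j
    have h1 : (D.coroot.getD p #[]).getD j.val 0 = if i = j.val then 1 else 0 :=
      hT.coroot_simple i hi j.val j.isLt
    rw [h1]
    by_cases h : j = ii
    · have : i = j.val := by rw [h]
      simp [this, h]
    · have : ¬ i = j.val := fun e => h (Fin.ext e.symm)
      simp [this, h]
  have hcq : ∀ j : Fin D.rank, (((D.coroot.getD q #[]).getD j.val 0 : ℤ) : F) = if j = ii then -1 else 0 := by
    intro j
    have h1 : (D.coroot.getD q #[]).getD j.val 0 = - (D.coroot.getD p #[]).getD j.val 0 :=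
      hT.coroot_neg p hp j.val j.isLt
    rw [h1, Int.cast_neg, hcp j]
    split_ifs <;> simp
  have hsum1 : ∀ M : Matrix D.Idx D.Idx F, ∀ k, (∑ j : Fin D.rank, M k (Sum.inl j) *
      (((D.coroot.getD p #[]).getD j.val 0 : ℤ) : F)) = M k (Sum.inl ii) := by
    intro M k
    simp only [hcp, mul_ite, mul_one, mul_zero, Finset.sum_ite_eq', Finset.mem_univ, if_true]
  have hsum2 : ∀ M : Matrix D.Idx D.Idx F, ∀ k, (∑ j : Fin D.rank, M k (Sum.inl j) *
      (((D.coroot.getD q #[]).getD j.val 0 : ℤ) : F)) = - M k (Sum.inl ii) := by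
    intro M k
    simp only [hcq, mul_ite, mul_zero, Finset.sum_ite_eq', Finset.mem_univ, if_true]
    ring
  set a := D.x F p (1 : F) with ha
  set b := D.x F q (-1 : F) with hb
  have hn : D.nMat F p 1 = a * b * a := by
    rw [← coe_nG hR.toAddRel, nG]
    simp [coe_X, ha, hb, hqdef]
  have hab_inl : ∀ k, (a * b) k (Sum.inl ii) = a k (Sum.inl ii) - 2 * a k (Sum.inr eq) := by
    intro k
    rw [hb, col_inl hq]
    have h1 := hαq
    simp only [ii]
    rw [h1]
    ring_nf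
    rfl
  have hab_ep : ∀ k, (a * b) k (Sum.inr ep) = a k (Sum.inr ep) + a k (Sum.inl ii) - a k (Sum.inr eq) := by
    intro k
    rw [hb, col_neg hq _ _ _ ep hpq hqp.symm, hsum2]
    ring_nf
    rfl
  have hab_eq : ∀ k, (a * b) k (Sum.inr eq) = a k (Sum.inr eq) := by
    intro k
    rw [hb]
    exact col_self hq _ _ _
  have hn_inl : ∀ k, D.nMat F p 1 k (Sum.inl ii) = - a k (Sum.inl ii) - 2 * a k (Sum.inr ep) := by
    intro k
    rw [hn, ha, col_inl hp, ← ha]
    have h1 := hαp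
    simp only [ii]
    rw [h1]
    change (a * b) k (Sum.inl ii) - 2 * 1 * (a * b) k (Sum.inr ep) = _
    rw [hab_inl, hab_ep]
    ring
  have hn_eq : ∀ k, D.nMat F p 1 k (Sum.inr eq) = - a k (Sum.inr ep) := by
    intro k
    rw [hn, ha, col_neg hp _ _ _ eq hpq.symm rfl, ← ha, hsum1]
    change (a * b) k (Sum.inr eq) + (a * b) k (Sum.inl ii) * 1 - 1 ^ 2 * (a * b) k (Sum.inr ep) = _
    rw [hab_inl, hab_ep, hab_eq]
    ring
  have h11 : D.nMat F p 1 (Sum.inl ii) (Sum.inl ii) = -1 := by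
    rw [hn_inl, ha, x_inl_inl hp, x_inl_inr_self hp, if_pos rfl]
    ring
  have hc : D.nMat F p 1 (Sum.inr ep) (Sum.inr eq) = -1 := by
    rw [hn_eq, ha, x_inr_inr_self hp, if_pos rfl]
  have hconj := congrFun (congrFun (hR.nconj i hi p hp 1) (Sum.inl ii)) (Sum.inr eq)
  rw [hT.w_simple i hi, ← hqdef, ← ha, col_neg hp _ _ _ eq hpq.symm rfl, hsum1] at hconj
  have hz1 := hR.nshape₂ i hi ii eq
  have hz2 := hR.nshape₂ i hi ii ep
  rw [← hpdef] at hz1 hz2
  rw [hz1, hz2, h11, Matrix.mul_apply, Fintype.sum_sum_type] at hconj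
  have hz3 : ∑ l : Fin D.rank, D.x F q ((η i p : F) * 1) (Sum.inl ii) (Sum.inl l) *
      D.nMat F p 1 (Sum.inl l) (Sum.inr eq) = 0 := by
    refine Finset.sum_eq_zero fun l _ => ?_
    have := hR.nshape₂ i hi l eq
    rw [← hpdef] at this
    rw [this, mul_zero]
  have hwq : D.reflectRoot i q = p := by
    have := hT.w_w i hi p hp
    rwa [hT.w_simple i hi] at this
  have hz4 : ∑ u : Fin D.nroots, D.x F q ((η i p : F) * 1) (Sum.inl ii) (Sum.inr u) *
      D.nMat F p 1 (Sum.inr u) (Sum.inr eq) =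
      D.x F q ((η i p : F) * 1) (Sum.inl ii) (Sum.inr ep) * D.nMat F p 1 (Sum.inr ep) (Sum.inr eq) := by
    refine Finset.sum_eq_single ep (fun u _ hu => ?_) (by simp)
    have := hR.nshape₃ i hi eq u (fun h => hu (Fin.ext (h.trans hwq)))
    rw [← hpdef] at this
    rw [this, mul_zero]
  rw [hz3, hz4, zero_add, hc, x_inl_inr_neg hq _ ii ep hpq hqp.symm, hcq ii, if_pos rfl] at hconj
  linear_combination (-1 : F) * hconj

end Cfsg.Agent.Lib.StChar.Eta
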